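import Cfsg.Agent.N2.Defs
import Cfsg.Agent.OrdDiv.Table
import Cfsg.Agent.H436.Core3719
import Cfsg.Agent.H612.MinNormal
import Cfsg.Agent.Lib.SolvableMinNormal
import Cfsg.Agent.Lib.Cores
import Cfsg.Agent.H497.UFourTwo
import Cfsg.Agent.H93.ThreeNine
import Cfsg.Agent.H845.AutUFour
import Cfsg.Agent.H824.ProdLem
import Cfsg.Agent.H138.HT.Alt
import Cfsg.Agent.S0243
import Cfsg.Agent.SmallSimple.S1000.PSLFacts
import Cfsg.Agent.SolvableStructure.HallConverse

/-!
# N2 (S3519), sporadic groups: finite groups without normal subgroups of prime power order (helper16)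
-/

set_option autoImplicit false
set_option linter.unusedSectionVars false

namespace Cfsg.Agent.N2.Sp5

open Cfsg Subgroup Cfsg.Agent.H612.MinNormal

variable {G : Type} [Group G] [Finite G]

/-- a component -/
structure Cp (S : Subgroup G) : Prop where
  simple : IsSimpleGroup S
  nab : ¬ IsMulCommutative S
  cnj : ∀ g : G, cj g S = S ∨ cj g S ≤ centralizer (S : Set G)

theorem exists_cp [Nontrivial G] (h0 : ∀ p : ℕ, p.Prime → pCore p G = ⊥) : ∃ S : Subgroup G, Cp S := by
  obtain ⟨N, ⟨h1, h2⟩, h3⟩ := (Set.toFinite {N : Subgroup G | N.Normal ∧ N ≠ ⊥}).exists_minimal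
    ⟨⊤, inferInstance, top_ne_bot⟩
  obtain ⟨S, -, -, h4, h5, -, h6⟩ := exists_factor N h2 (fun M hM hl => by
    by_cases e : M = ⊥
    · exact .inl e
    · exact .inr (le_antisymm hl (h3 ⟨hM, e⟩ hl))) fun hc => by
    have : Nontrivial N := N.nontrivial_iff_ne_bot.2 h2
    have : Group.IsSolvable N := Group.isSolvable_of_comm fun a b => Subtype.ext (hc a a.2 b b.2)
    obtain ⟨p, hp, M, hM, -, h7, h8⟩ := Lib.SolvableMinNormal.exists_characteristic_pgroup (G := N)
    have := Fact.mk hp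
    have h9 : M.map N.subtype ≤ pCore p G := Lib.Cores.le_pCore inferInstance (h7.map _)
    rw [h0 p hp, le_bot_iff, map_eq_bot_iff_of_injective _ N.subtype_injective] at h9
    exact h8 h9
  exact ⟨S, h4, h5, h6⟩

/-- the component is normal with trivial centraliser -/
theorem Cp.soc {S : Subgroup G} (h : Cp S) {p : ℕ} (hp : p.Prime) (h0 : pCore p G = ⊥)
    (hc : IsPGroup p (centralizer (S : Set G))) : S.Normal ∧ centralizer (S : Set G) = ⊥ := by
  have := Fact.mk hp
  have := h.simple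
  have h1 : S.Normal := ⟨fun n hn g => by
    rcases h.cnj g with e | e
    · rw [← e, mem_cj]
      rwa [show g⁻¹ * (g * n * g⁻¹) * g = n by group]
    · have h2 : IsPGroup p S := (hc.to_le e).of_equiv (S.equivMapOfInjective _ (MulAut.conj g).injective).symm
      have := h2.isNilpotent
      exact absurd ⟨⟨IsSimpleGroup.comm_iff_isSolvable.2 inferInstance⟩⟩ h.nab⟩
  exact ⟨h1, le_bot_iff.1 (h0 ▸ Lib.Cores.le_pCore inferInstance hc)⟩

theorem card_dvd_aut {S : Subgroup G} [S.Normal] (hc : centralizer (S : Set G) = ⊥) : Nat.card G ∣ Nat.card (MulAut S) := by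
  refine card_dvd_of_injective (MulAut.conjNormal (H := S)) ((MonoidHom.ker_eq_bot_iff _).1 (le_bot_iff.1 ?_))
  rw [← hc]
  intro g hg
  refine mem_centralizer_iff.2 fun s hs => ?_
  have h1 := congrArg Subtype.val (DFunLike.congr_fun (MonoidHom.mem_ker.1 hg) ⟨s, hs⟩)
  rw [MulAut.conjNormal_apply] at h1
  exact (mul_inv_eq_iff_eq_mul.1 h1).symm

theorem card_aut_congr {U V : Type} [Group U] [Group V] (e : U ≃* V) : Nat.card (MulAut U) = Nat.card (MulAut V) :=
  Nat.card_congr (MulAut.congr e).toEquiv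

theorem three_le {U : Type} [Group U] [Finite U] [IsSimpleGroup U] (hU : ¬ IsMulCommutative U) :
    3 ≤ (Nat.card U).primeFactors.card := by
  by_contra hne
  have := SolvableStructure.HallConverse.isSolvable_of_no_three_primes (G := U) (by omega)
  exact hU ⟨⟨IsSimpleGroup.comm_iff_isSolvable.2 ‹_›⟩⟩

/-- the three simple groups -/
def L5 (U : Type) [Group U] : Prop :=
  Nonempty (U ≃* alternatingGroup (Fin 5)) ∨ Nonempty (U ≃* alternatingGroup (Fin 6)) ∨
    ∃ (F : Type) (_ : Field F) (_ : Fintype F), Fintype.card F = 4 ∧ Nonempty (U ≃* PSU 4 F 2)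

theorem list5 (cf : Cf) {U : Type} [Group U] [Finite U] [IsSimpleGroup U] (hU : ¬ IsMulCommutative U)
    (h5 : ∀ r : ℕ, r.Prime → r ∣ Nat.card U → r ≤ 5) : L5 U := by
  obtain ⟨g, hg⟩ := H436.exists_named OrdDiv.table (cf U) fun h => hU ⟨⟨h⟩⟩
  have no : ∀ r n : ℕ, r.Prime → 5 < r → r ∣ n → Nat.card U ≠ n := fun r n hr h1 h2 h3 =>
    absurd (h5 r hr (h3 ▸ h2)) (by omega)
  have h3 : (Nat.card U).primeFactors.card = 3 := by
    refine le_antisymm ((Finset.card_le_card (t := {2, 3, 5}) fun r hr => ?_).trans (by decide)) (three_le hU)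
    have hp := Nat.prime_of_mem_primeFactors hr
    have h1 := h5 r hp (Nat.dvd_of_mem_primeFactors hr)
    revert hp
    clear * - h1
    interval_cases r <;> decide
  rcases H436.Core3719.core hg h3 with h | h | ⟨F, _, _, hF, ⟨e⟩⟩ | ⟨F, _, _, hF, ⟨e⟩⟩ | ⟨F, _, _, hF, ⟨e⟩⟩ | h
  · exact Or.inl h
  · exact Or.inr (Or.inl h)
  · exfalso
    have hc := Nat.card_congr e.toEquiv
    rcases hF with hF | hF | hF <;> have h := S0243.result hF 2 le_rfl <;> rw [← hc] at h <;>
      simp only [Fin.prod_univ_two] at h <;> norm_num at h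
    · exact no 7 168 (by norm_num) (by norm_num) (by norm_num) (by omega)
    · exact no 7 504 (by norm_num) (by norm_num) (by norm_num) (by omega)
    · exact no 17 2448 (by norm_num) (by norm_num) (by norm_num) (by omega)
  · exfalso
    have hc := Nat.card_congr e.toEquiv
    have h := S0243.result hF 3 (by norm_num)
    rw [← hc] at h
    simp only [Fin.prod_univ_three] at h
    norm_num at h
    exact no 13 5616 (by norm_num) (by norm_num) (by norm_num) (by omega)
  · exfalso
    have hc := Nat.card_congr e.toEquiv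
    rw [SmallSimple.PSLFacts.card_psu_three_three hF] at hc
    exact no 7 6048 (by norm_num) (by norm_num) (by norm_num) hc
  · exact Or.inr (Or.inr h)

theorem card_alt5 : Nat.card (alternatingGroup (Fin 5)) = 60 := by
  have := two_mul_nat_card_alternatingGroup (α := Fin 5)
  rw [Nat.card_perm, Nat.card_fin] at this
  simp only [Nat.factorial] at this
  omega

theorem card_alt6 : Nat.card (alternatingGroup (Fin 6)) = 360 := by
  have := two_mul_nat_card_alternatingGroup (α := Fin 6)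
  rw [Nat.card_perm, Nat.card_fin] at this
  simp only [Nat.factorial] at this
  omega

theorem L5.card {U : Type} [Group U] (h : L5 U) : Nat.card U = 60 ∨ Nat.card U = 360 ∨ Nat.card U = 25920 := by
  rcases h with ⟨⟨e⟩⟩ | ⟨⟨e⟩⟩ | ⟨F, _, _, hF, ⟨e⟩⟩
  · exact .inl ((Nat.card_congr e.toEquiv).trans card_alt5)
  · exact .inr (.inl ((Nat.card_congr e.toEquiv).trans card_alt6))
  · exact .inr (.inr ((Nat.card_congr e.toEquiv).trans (H93.ThreeNine.card_psu_four_two hF)))

/-- an element whose centraliser has no elements of other prime orders -/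
theorem pg_cent {S : Subgroup G} {u : G} (hu : u ∈ S) {p : ℕ} (hp : p.Prime)
    (h : ∀ g : G, (orderOf g).Prime → Commute u g → orderOf g = p) : IsPGroup p (centralizer (S : Set G)) := by
  refine (isPGroup_iff_primeFactors_card_subset hp.ne_zero).2 fun r hr => ?_
  have := Fact.mk (Nat.prime_of_mem_primeFactors hr)
  obtain ⟨g, hg⟩ := exists_prime_orderOf_dvd_card' r (Nat.dvd_of_mem_primeFactors hr)
  rw [← orderOf_coe] at hg
  rw [hp.primeFactors, Finset.mem_singleton, ← hg]
  exact h g (hg ▸ this.1) (mem_centralizer_iff.1 g.2 u hu)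

theorem exists_ord (S : Subgroup G) {p : ℕ} (hp : p.Prime) (h : p ∣ Nat.card S) : ∃ u ∈ S, orderOf u = p := by
  have := Fact.mk hp
  obtain ⟨g, hg⟩ := exists_prime_orderOf_dvd_card' p h
  exact ⟨g, g.2, by rw [orderOf_coe, hg]⟩

theorem Cp.l5 (cf : Cf) {S : Subgroup G} (h : Cp S) (h5 : ∀ g : G, (orderOf g).Prime → orderOf g ≤ 5) : L5 S :=
  have := h.simple
  list5 cf h.nab fun r hr hd => by
    obtain ⟨u, -, rfl⟩ := exists_ord S hr hd
    exact h5 u hr

/-- **the socle** -/
theorem soc5 (cf : Cf) [Nontrivial G] (h0 : ∀ p : ℕ, p.Prime → pCore p G = ⊥)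
    (h5 : ∀ g : G, (orderOf g).Prime → orderOf g ≤ 5) (h10 : ∀ g : G, orderOf g ≠ 10 ∧ orderOf g ≠ 15) :
    ∃ S : Subgroup G, S.Normal ∧ centralizer (S : Set G) = ⊥ ∧ L5 S := by
  obtain ⟨S, hS⟩ := exists_cp h0
  have h1 := hS.l5 cf h5
  obtain ⟨u, hu, ou⟩ := exists_ord S Nat.prime_five (by have := h1.card; omega)
  obtain ⟨h2, h3⟩ := hS.soc Nat.prime_five (h0 5 Nat.prime_five) (pg_cent hu Nat.prime_five fun g hg hc => by
    by_contra e
    have h4 := hc.orderOf_mul_eq_mul_orderOf_of_coprime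
      (ou ▸ (Nat.coprime_primes Nat.prime_five hg).2 (Ne.symm e))
    have h6 := h10 (u * g)
    have h7 := h5 g hg
    rw [h4, ou] at h6
    generalize orderOf g = r at *
    interval_cases r <;> first | omega | exact absurd hg (by decide))
  exact ⟨S, h2, h3, h1⟩

theorem mem_of_coprime {S : Subgroup G} [S.Normal] {g : G} (h : S.index.Coprime (orderOf g)) : g ∈ S := by
  obtain ⟨m, hm⟩ := exists_pow_eq_self_of_coprime h
  exact hm ▸ S.pow_mem (S.pow_index_mem g) m

theorem index_dvd {S : Subgroup G} [S.Normal] (hc : centralizer (S : Set G) = ⊥) {k : ℕ}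
    (h : Nat.card (MulAut S) = k * Nat.card S) : S.index ∣ k :=
  Nat.dvd_of_mul_dvd_mul_right (Nat.card_pos (α := S)) (by rw [S.index_mul_card, ← h]; exact card_dvd_aut hc)

/-- the elements of order five -/
theorem card_five {S : Subgroup G} {n : ℕ} (e : S ≃* alternatingGroup (Fin n)) (h5 : 5 ≤ n) (h9 : n ≤ 9)
    (h : ∀ g : G, orderOf g = 5 → g ∈ S) : Nat.card {g : G // orderOf g = 5} ≤ 24 * n.choose 5 := by
  have h1 := Equiv.Perm.card_of_cycleType_singleton (α := Fin n) (n := 5) (by norm_num) (by rwa [Fintype.card_fin])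
  rw [Fintype.card_fin] at h1
  rw [show 24 = (5 - 1).factorial from rfl, ← h1, ← Fintype.card_coe, ← Nat.card_eq_fintype_card]
  refine Nat.card_le_card_of_injective (fun g => ⟨(e ⟨g.1, h g.1 g.2⟩).1, ?_⟩) fun a b hab => ?_
  · have h2 : orderOf (e ⟨g.1, h g.1 g.2⟩).1 = 5 := by rw [orderOf_coe, e.orderOf_eq, orderOf_mk, g.2]
    have h3 := Equiv.Perm.isCycle_of_prime_order' (h2 ▸ Nat.prime_five) (by rw [h2, Fintype.card_fin]; omega)
    rw [Finset.mem_filter, h3.cycleType, ← h3.orderOf, h2]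
    exact ⟨Finset.mem_univ _, rfl⟩
  · exact Subtype.ext (congrArg Subtype.val (e.injective (Subtype.ext (congrArg Subtype.val hab :))) :)

/-- the orders and the numbers of the elements of order five -/
def cand : List (ℕ × ℕ) := [(60, 24), (120, 24), (360, 144), (720, 144), (1440, 144)]

theorem shape_of {S : Subgroup G} [S.Normal] (hc : centralizer (S : Set G) = ⊥) (h : L5 S) :
    (∃ q ∈ cand, Nat.card G = q.1 ∧ Nat.card {g : G // orderOf g = 5} ≤ q.2) ∨
      Nat.card G ≤ 51840 ∧ ∃ g : G, orderOf g = 9 := by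
  have h1 := S.index_mul_card
  have h4 : S.index ∣ 4 → ∀ g : G, orderOf g = 5 → g ∈ S := fun h g hg =>
    mem_of_coprime (hg ▸ Nat.Coprime.coprime_dvd_left h (by norm_num))
  rcases h with ⟨⟨e⟩⟩ | ⟨⟨e⟩⟩ | ⟨F, _, _, hF, ⟨e⟩⟩
  · have h2 := (Nat.card_congr e.toEquiv).trans card_alt5
    have h3 := index_dvd hc (k := 2) (by
      rw [card_aut_congr e, H138.HT.card_aut_alt 5 (by norm_num) (by norm_num), h2]; rfl)
    have h5 := card_five e le_rfl (by norm_num) (h4 (h3.trans (by norm_num)))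
    rw [h2] at h1
    rcases (Nat.dvd_prime Nat.prime_two).1 h3 with k | k <;> rw [k] at h1
    exacts [.inl ⟨(60, 24), by decide, h1.symm, h5⟩, .inl ⟨(120, 24), by decide, h1.symm, h5⟩]
  · have h2 := (Nat.card_congr e.toEquiv).trans card_alt6
    have h3 := index_dvd hc (k := 4) (by rw [card_aut_congr e, H824.ProdLem.card_aut_a6, h2])
    have h5 := card_five e (by norm_num) (by norm_num) (h4 h3)
    rw [h2] at h1
    obtain ⟨i, hi, k⟩ := (Nat.dvd_prime_pow (m := 2) Nat.prime_two).1 h3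
    rw [k] at h1
    interval_cases i
    exacts [.inl ⟨(360, 144), by decide, h1.symm, h5⟩, .inl ⟨(720, 144), by decide, h1.symm, h5⟩,
      .inl ⟨(1440, 144), by decide, h1.symm, h5⟩]
  · have h2 := (Nat.card_congr e.toEquiv).trans (H93.ThreeNine.card_psu_four_two hF)
    have h3 := index_dvd hc (k := 2) (by
      rw [card_aut_congr e, H845.AutUFour.card_mulAut_PSU hF, Nat.card_congr e.toEquiv])
    obtain ⟨x, hx⟩ := H497.UFourTwo.exists_order_nine hF
    have h5 := Nat.le_of_dvd two_pos h3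
    rw [h2] at h1
    exact .inr ⟨by omega, e.symm x, by rw [orderOf_coe, e.symm.orderOf_eq, hx]⟩

/-- **the shape of the group** -/
theorem shape (cf : Cf) [Nontrivial G] (h0 : ∀ p : ℕ, p.Prime → pCore p G = ⊥)
    (h5 : ∀ g : G, (orderOf g).Prime → orderOf g ≤ 5) (h10 : ∀ g : G, orderOf g ≠ 10 ∧ orderOf g ≠ 15) :
    (∃ g : G, orderOf g = 5) ∧ ((∃ q ∈ cand, Nat.card G = q.1 ∧ Nat.card {g : G // orderOf g = 5} ≤ q.2) ∨
      Nat.card G ≤ 51840 ∧ ∃ g : G, orderOf g = 9) := by
  obtain ⟨S, h1, h2, h3⟩ := soc5 cf h0 h5 h10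
  obtain ⟨u, -, ou⟩ := exists_ord S Nat.prime_five (by have := h3.card; omega)
  exact ⟨⟨u, ou⟩, shape_of h2 h3⟩

end Cfsg.Agent.N2.Sp5
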